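import Cfsg.Agent.H607.TW.Defs2
import Cfsg.Agent.H429.Suborbit
import Cfsg.Agent.H900.TWCore
import Cfsg.Agent.S3684
import Cfsg.Agent.S3685

/-!
# S3694, T15: the reduction to the situation `Sit` (helper124)

`reduction_of_four` takes the bound for `d = 4` (S3567, closure 19198 modules) as a hypothesis; `Reduction.lean` plugs it in.
-/

set_option autoImplicit false

namespace Cfsg.Agent.H124.TW

open Subgroup MulAction Cfsg Cfsg.Agent.H607.TW Cfsg.Agent.H429.Suborbit Cfsg.Agent.H900.TWCore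

section

variable {G Ω : Type*} [Group G] [MulAction G Ω]

theorem mem_K_iff {a b : Ω} {x : G} :
    x ∈ K a b ↔ x ∈ stabilizer G a ∧ ∀ m ∈ stabilizer G a, m * x * m⁻¹ ∈ stabilizer G a ⊓ stabilizer G b := by
  rw [mem_K]
  constructor
  · rintro ⟨h1, h2⟩
    refine ⟨h1, fun m hm => mem_inf.2 ⟨mul_mem (mul_mem hm h1) (inv_mem hm), ?_⟩⟩
    have h3 := h2 (m⁻¹ • b) ⟨⟨m⁻¹, inv_mem hm⟩, rfl⟩
    rw [mem_stabilizer_iff, mul_smul, mul_smul, h3, smul_inv_smul]
  · rintro ⟨h1, h2⟩
    refine ⟨h1, ?_⟩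
    rintro _ ⟨⟨m, hm⟩, rfl⟩
    have h3 := (mem_inf.1 (h2 m⁻¹ (inv_mem hm))).2
    rw [mem_stabilizer_iff, mul_smul, mul_smul, inv_inv] at h3
    change x • m • b = m • b
    rw [inv_smul_eq_iff] at h3
    exact h3

theorem T_le_left (a b : Ω) : (T a b : Subgroup G) ≤ K a b := by
  intro x hx
  rw [mem_K]
  have h1 := T_le a b hx
  refine ⟨K_le_right b a h1, fun c hc => ?_⟩
  exact (mem_K.mp (mem_T.mp hx c hc)).1

end

theorem M_two : M 2 = 2 := by decide
theorem M_three : M 3 = 48 := by decide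
theorem M_four : M 4 = 31104 := by decide

/-- T15 : the reduction, up to `d = 4` -/
theorem reduction_of_four {G Ω : Type*} [Group G] [Finite G] [MulAction G Ω] [FaithfulSMul G Ω] [Finite Ω]
    (N : Subgroup G) (hNn : N.Normal) (hNs : IsSimpleGroup N) (hNa : ¬ IsMulCommutative N)
    (hNc : Subgroup.centralizer (N : Set G) = ⊥) (hprim : MulAction.IsPreprimitive G Ω) (a b : Ω) (d : ℕ)
    (hd : Nat.card (MulAction.orbit (MulAction.stabilizer G a) b) = d) (h2 : 2 ≤ d)
    (h4 : Nat.card (MulAction.orbit (MulAction.stabilizer G a) b) = 4 → Nat.card ↥(MulAction.stabilizer G a) ≤ 31104)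
    (key : ∀ (A C A₁ C₁ A₂ C₂ : Subgroup G) (r : ℕ), Sit N A C A₁ C₁ A₂ C₂ r d → Nat.card ↥A ≤ M d) :
    Nat.card (MulAction.stabilizer G a) ≤ M d := by
  have h2' : 2 ≤ Nat.card (orbit (stabilizer G a) b) := by rw [hd]; exact h2
  -- small cases
  by_cases hd2 : d = 2
  · subst hd2
    rw [(S3684.result hprim a b hd).1, M_two]
  by_cases hd3 : d = 3
  · subst hd3
    rw [M_three]
    have hp3 : Nat.card (Equiv.Perm (Fin 3)) = 6 := by rw [Nat.card_perm, Nat.card_fin]; rfl
    have hp4 : Nat.card (Equiv.Perm (Fin 4)) = 24 := by rw [Nat.card_perm, Nat.card_fin]; rfl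
    rcases S3685.result hprim a b hd with ⟨⟨e⟩⟩ | ⟨⟨e⟩⟩ | ⟨⟨e⟩⟩ | ⟨⟨e⟩⟩ | ⟨⟨e⟩⟩
    · rw [Nat.card_congr e.toEquiv]
      have : Nat.card (Multiplicative (ZMod 3)) = 3 := by
        rw [Nat.card_congr Multiplicative.toAdd, Nat.card_zmod]
      omega
    · rw [Nat.card_congr e.toEquiv, hp3]; omega
    · rw [Nat.card_congr e.toEquiv, DihedralGroup.nat_card]; omega
    · rw [Nat.card_congr e.toEquiv, hp4]; omega
    · rw [Nat.card_congr e.toEquiv, Nat.card_prod, hp4]
      have : Nat.card (Multiplicative (ZMod 2)) = 2 := by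
        rw [Nat.card_congr Multiplicative.toAdd, Nat.card_zmod]
      omega
  by_cases hd4 : d = 4
  · subst hd4
    rw [M_four]
    exact h4 hd
  have h5 : 5 ≤ d := by omega
  by_cases hA2 : (T a b : Subgroup G) = ⊥
  · have h := Nat.le_of_dvd (by positivity) (card_dvd_of_T_eq_bot hA2)
    rw [hd] at h
    exact h
  by_cases hC2 : (T b a : Subgroup G) = ⊥
  · have h := Nat.le_of_dvd (by positivity) (card_dvd_of_T_eq_bot hC2)
    rw [card_orbit_eq, card_stabilizer_eq b a, hd] at h
    exact h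
  -- the main case
  have hnt : Nontrivial Ω := ⟨a, b, ne_of_two_le h2'⟩
  have hmax : ∀ c : Ω, IsCoatom (stabilizer G c) := fun c =>
    IsPreprimitive.isCoatom_stabilizer_of_isPreprimitive G c
  have hne : stabilizer G a ≠ stabilizer G b := stabilizer_ne_of_two_le h2'
  obtain ⟨g, hg⟩ := exists_smul_eq G a b
  have hconj : stabilizer G b = (stabilizer G a).map (MulAut.conj g).toMonoidHom := by
    rw [← hg, stabilizer_smul_eq_stabilizer_map_conj]
  have hsup : stabilizer G a ⊔ stabilizer G b = ⊤ := by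
    rcases (hmax a).le_iff.mp (le_sup_left : stabilizer G a ≤ stabilizer G a ⊔ stabilizer G b) with h | h
    · exact h
    · exfalso
      have h1 : stabilizer G b ≤ stabilizer G a := by rw [← h]; exact le_sup_right
      rcases (hmax b).le_iff.mp h1 with h3 | h3
      · exact (hmax a).1 h3
      · exact hne h3
  have hP : Pair (stabilizer G a) (stabilizer G b) (K a b) (K b a) (T a b) (T b a) := by
    refine ⟨fun X h1 h3 h4 => normalizer_le hprim a X h3 h1 h4, fun X h1 h3 h4 => normalizer_le hprim b X h3 h1 h4, ?_,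
      fun x => mem_K_iff, fun x => ?_, T_le_left a b, T_le a b, le_normalizer_T a b, T_le b a, T_le_left b a,
      le_normalizer_T b a, hA2, hC2, ⟨g, hconj⟩⟩
    · intro X h1 _ h3 h4
      by_contra h0
      have h6 := normalizer_le hprim a X h1 h0 h3
      have h7 : (⊤ : Subgroup G) ≤ normalizer (X : Set G) := by rw [← hsup]; exact sup_le h3 h4
      exact (hmax a).1 (top_le_iff.1 (h7.trans h6))
    · rw [mem_K_iff, inf_comm]
  obtain ⟨p, hp, hpA, hpB, hF, hr⟩ := hP.main
  obtain ⟨p', hp', hpB', hpA', hF', hr'⟩ := hP.symm.main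
  have hpp : p' = p := by
    by_contra hne'
    apply hA2
    have : Fact p.Prime := ⟨hp⟩
    have : Fact p'.Prime := ⟨hp'⟩
    obtain ⟨u, hu⟩ := (IsPGroup.iff_card).mp hpA
    obtain ⟨v, hv⟩ := (IsPGroup.iff_card).mp hpA'
    rw [← Subgroup.card_eq_one]
    have h1 : Nat.card (T a b : Subgroup G) ∣ Nat.gcd (p ^ u) (p' ^ v) :=
      Nat.dvd_gcd ⟨1, by rw [hu, mul_one]⟩ ⟨1, by rw [hv, mul_one]⟩
    rw [(Nat.Coprime.pow u v ((Nat.coprime_primes hp hp').mpr (Ne.symm hne'))).gcd_eq_one] at h1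
    exact Nat.dvd_one.mp h1
  subst hpp
  have hNbot : N ≠ ⊥ := by
    rintro rfl
    exact hNa ⟨⟨fun x y => Subsingleton.elim _ _⟩⟩
  have hNle : ∀ c : Ω, ¬ N ≤ stabilizer G c := by
    intro c h
    have h1 : normalizer (N : Set G) = ⊤ := normalizer_eq_top_iff.2 hNn
    have h3 := normalizer_le hprim c N h hNbot (by rw [h1]; exact le_top)
    rw [h1] at h3
    exact (hmax c).1 (top_le_iff.1 h3)
  refine key (stabilizer G a) (stabilizer G b) (K a b) (K b a) (T a b) (T b a) p' ?_
  exact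
    { locA := ⟨hNn, hNs, hNa, hNc, hmax a, hNle a, hp', hF⟩
      locC := ⟨hNn, hNs, hNa, hNc, hmax b, hNle b, hp', hF'⟩
      ne := hne
      conj := ⟨g, hconj⟩
      idx := by
        have h1 := card_orbit_mul (G := G) a b
        rw [hd] at h1
        have h3 := Subgroup.relIndex_mul_relIndex ⊥ (stabilizer G a ⊓ stabilizer G b) (stabilizer G a) bot_le inf_le_left
        rw [Subgroup.relIndex_bot_left, Subgroup.relIndex_bot_left, mul_comm] at h3
        exact Nat.eq_of_mul_eq_mul_right Nat.card_pos (h3.trans h1.symm)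
      five := h5
      A₁_le := le_inf (K_le_left a b) (K_le_right a b)
      C₁_le := le_inf (K_le_right b a) (K_le_left b a)
      A₁_norm := le_normalizer_K a b
      C₁_norm := le_normalizer_K b a
      A₂_le := le_inf (T_le_left a b) (T_le a b)
      C₂_le := le_inf (T_le b a) (T_le_left b a)
      A₂_norm := le_normalizer_T a b
      C₂_norm := le_normalizer_T b a
      A₂_ne := hA2
      C₂_ne := hC2
      A₂_OO := hP.symm.le_pcore_of_X (T_le a b) ((K_le_right b a).trans (le_normalizer_T a b)) hpA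
      C₂_OO := hP.le_pcore_of_X (T_le b a) ((K_le_right a b).trans (le_normalizer_T b a)) hpB }

end Cfsg.Agent.H124.TW
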